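import Cfsg.Agent.Lib.Helper35.JR.Defs

/-!
# JR (S3206), package [MULT] (helper86)

A finite group `G` with elementary abelian Sylow 2-subgroups of order 8 whose normalizers are
transitive on the involutions has no perfect central extension by a non-trivial 2-group.
-/

set_option autoImplicit false

namespace Cfsg.Agent.Lib.Helper86.JR

open Cfsg.Agent.Lib.Helper35.JR
open scoped commutatorElement

universe u

/-- transfer: the index-th power of a central element of the commutator subgroup lies in the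
commutator subgroup of `H`. -/
theorem central_pow_index_mem_commutator {Γ : Type*} [Group Γ] (H : Subgroup Γ)
    [H.FiniteIndex] {a : Γ} (ha : a ∈ Subgroup.center Γ) (ha' : a ∈ commutator Γ) :
    ∃ h : a ^ H.index ∈ H, (⟨a ^ H.index, h⟩ : H) ∈ commutator H := by
  have key : ∀ (k : ℕ) (g₀ : Γ), g₀⁻¹ * a ^ k * g₀ ∈ H → g₀⁻¹ * a ^ k * g₀ = a ^ k := by
    intro k g₀ _
    have hk : a ^ k ∈ Subgroup.center Γ := Subgroup.pow_mem _ ha k
    have := Subgroup.mem_center_iff.mp hk g₀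
    rw [mul_assoc, ← this, inv_mul_cancel_left]
  have h1 := MonoidHom.transfer_eq_pow (Abelianization.of (G := H)) a key
  have h2 : MonoidHom.transfer (Abelianization.of (G := H)) a = 1 := by
    have := Abelianization.commutator_subset_ker
      (MonoidHom.transfer (Abelianization.of (G := H))) ha'
    exact this
  rw [h2] at h1
  refine ⟨MonoidHom.transfer_eq_pow_aux a key, ?_⟩
  rw [← Abelianization.ker_of, MonoidHom.mem_ker]
  exact h1.symm

/-- the commutator is multiplicative in the second argument when `⁅x, w⁆` is central. -/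
theorem comm_mul_right {L : Type*} [Group L] (x y w : L) (h : ⁅x, w⁆ ∈ Subgroup.center L) :
    ⁅x, y * w⁆ = ⁅x, y⁆ * ⁅x, w⁆ := by
  have hc := Subgroup.mem_center_iff.mp h
  have h1 : ⁅x, y * w⁆ = x * y * x⁻¹ * ⁅x, w⁆ * y⁻¹ := by
    simp only [commutatorElement_def]; group
  rw [h1, mul_assoc (x * y * x⁻¹), ← hc y⁻¹, ← mul_assoc]
  rfl

/-- a central element has trivial commutators (right). -/
theorem comm_central_right {L : Type*} [Group L] (x z : L) (h : z ∈ Subgroup.center L) :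
    ⁅x, z⁆ = 1 := by
  have hc := Subgroup.mem_center_iff.mp h x
  rw [commutatorElement_def, hc]; group

/-- a central element has trivial commutators (left). -/
theorem comm_central_left {L : Type*} [Group L] (z y : L) (h : z ∈ Subgroup.center L) :
    ⁅z, y⁆ = 1 := by
  have hc := Subgroup.mem_center_iff.mp h y
  rw [commutatorElement_def, ← hc]; group

/-- conjugation invariance of central commutators. -/
theorem comm_conj {L : Type*} [Group L] (n r y : L)
    (h : ⁅r, n⁻¹ * y * n⁆ ∈ Subgroup.center L) :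
    ⁅n * r * n⁻¹, y⁆ = ⁅r, n⁻¹ * y * n⁆ := by
  have hc := Subgroup.mem_center_iff.mp h n
  have h1 : ⁅n * r * n⁻¹, y⁆ = n * ⁅r, n⁻¹ * y * n⁆ * n⁻¹ := by
    simp only [commutatorElement_def]; group
  rw [h1, hc]; group

/-- multiplying the first argument by a central element does not change the commutator. -/
theorem comm_mul_central {L : Type*} [Group L] (x z y : L) (h : z ∈ Subgroup.center L) :
    ⁅x * z, y⁆ = ⁅x, y⁆ := by
  have hc := Subgroup.mem_center_iff.mp h
  have h1 : ⁅x * z, y⁆ = x * (z * y) * z⁻¹ * x⁻¹ * y⁻¹ := by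
    simp only [commutatorElement_def]; group
  rw [h1, ← hc y]
  simp only [commutatorElement_def]; group

/-- the commutator homomorphism `y ↦ ⁅x, y⁆` on a subgroup `P` whose commutators lie in a
central subgroup `Z`. -/
def commHom {L : Type*} [Group L] (Z P : Subgroup L) (hZc : Z ≤ Subgroup.center L)
    (hPZ : ∀ x ∈ P, ∀ y ∈ P, ⁅x, y⁆ ∈ Z) (x : P) : P →* Z where
  toFun y := ⟨⁅(x : L), (y : L)⁆, hPZ x x.2 y y.2⟩
  map_one' := by
    apply Subtype.ext
    simp
  map_mul' y w := by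
    apply Subtype.ext
    simp only [Subgroup.coe_mul]
    exact comm_mul_right _ _ _ (hZc (hPZ x x.2 w w.2))

theorem commHom_coe {L : Type*} [Group L] (Z P : Subgroup L) (hZc : Z ≤ Subgroup.center L)
    (hPZ : ∀ x ∈ P, ∀ y ∈ P, ⁅x, y⁆ ∈ Z) (x y : P) :
    ((commHom Z P hZc hPZ x y : Z) : L) = ⁅(x : L), (y : L)⁆ := rfl

theorem commHom_self {L : Type*} [Group L] (Z P : Subgroup L) (hZc : Z ≤ Subgroup.center L)
    (hPZ : ∀ x ∈ P, ∀ y ∈ P, ⁅x, y⁆ ∈ Z) (x : P) : commHom Z P hZc hPZ x x = 1 := by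
  apply Subtype.ext
  rw [commHom_coe]; simp

theorem commHom_symm {L : Type*} [Group L] (Z P : Subgroup L) (hZc : Z ≤ Subgroup.center L)
    (hPZ : ∀ x ∈ P, ∀ y ∈ P, ⁅x, y⁆ ∈ Z) (x y : P) :
    commHom Z P hZc hPZ y x = (commHom Z P hZc hPZ x y)⁻¹ := by
  apply Subtype.ext
  rw [Subgroup.coe_inv, commHom_coe, commHom_coe, commutatorElement_inv]

theorem commHom_central {L : Type*} [Group L] (Z P : Subgroup L) (hZc : Z ≤ Subgroup.center L)
    (hPZ : ∀ x ∈ P, ∀ y ∈ P, ⁅x, y⁆ ∈ Z) (x z : P) (hz : (z : L) ∈ Z) :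
    commHom Z P hZc hPZ x z = 1 := by
  apply Subtype.ext
  rw [commHom_coe, comm_central_right _ _ (hZc hz)]; rfl

/-- a strict inclusion of subgroups at least halves the index. -/
theorem two_mul_index_le {T : Type*} [Group T] [Finite T] (H K : Subgroup T) (hle : H ≤ K)
    (g : T) (hgK : g ∈ K) (hgH : g ∉ H) : 2 * K.index ≤ H.index := by
  have h1 := Subgroup.relIndex_mul_index hle
  have h2 : H.relIndex K ≠ 1 := by
    intro h
    exact hgH (Subgroup.relIndex_eq_one.mp h hgK)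
  have h3 : H.relIndex K ≠ 0 := by
    intro h
    rw [h, zero_mul] at h1
    exact Subgroup.index_ne_zero_of_finite h1.symm
  have h4 : 2 ≤ H.relIndex K := by omega
  calc 2 * K.index ≤ H.relIndex K * K.index := Nat.mul_le_mul_right _ h4
    _ = H.index := h1

/-- the values of a 2-torsion character have index at most 2 kernels. -/
theorem index_ker_le_two {T : Type*} [Group T] [Finite T] (f : T →* ℂˣ)
    (hf : ∀ y : T, f y ^ 2 = 1) : f.ker.index ≤ 2 := by
  rw [Subgroup.index_ker]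
  have hsub : (f.range : Set ℂˣ) ⊆ ({1, -1} : Set ℂˣ) := by
    rintro u ⟨y, rfl⟩
    have h1 := hf y
    have h2 : ((f y : ℂˣ) : ℂ) ^ 2 = 1 := by
      have := congrArg (fun v : ℂˣ => (v : ℂ)) h1
      simpa using this
    rcases sq_eq_one_iff.mp h2 with h3 | h3
    · left; exact Units.ext h3
    · right; exact Units.ext (by simpa using h3)
  have h5 : Nat.card ↥(f.range) = Set.ncard (f.range : Set ℂˣ) := Nat.card_coe_set_eq _
  rw [h5]
  calc Set.ncard (f.range : Set ℂˣ) ≤ Set.ncard ({1, -1} : Set ℂˣ) :=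
        Set.ncard_le_ncard hsub (Set.toFinite _)
    _ ≤ Set.ncard ({-1} : Set ℂˣ) + 1 := Set.ncard_insert_le _ _
    _ = 2 := by rw [Set.ncard_singleton]

/-- [MULT]. -/
theorem pkgMult : PkgMult.{u} := by
  intro G _ _ hS8 hFus L _ _ Z _ hperf hZc hZ2 ⟨e⟩
  classical
  haveI : Fact (Nat.Prime 2) := ⟨Nat.prime_two⟩
  let φ : L →* G := e.toMonoidHom.comp (QuotientGroup.mk' Z)
  have hφsurj : Function.Surjective φ := e.surjective.comp (QuotientGroup.mk'_surjective Z)
  have hφker : ∀ x : L, φ x = 1 ↔ x ∈ Z := by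
    intro x
    show e (QuotientGroup.mk' Z x) = 1 ↔ x ∈ Z
    rw [e.map_eq_one_iff]
    exact QuotientGroup.eq_one_iff x
  obtain ⟨P, hZP⟩ := hZ2.exists_le_sylow
  set S : Sylow 2 G := P.mapSurjective hφsurj with hSdef
  have hScoe : ∀ s : G, s ∈ (S : Subgroup G) ↔ ∃ x ∈ (P : Subgroup L), φ x = s := by
    intro s
    rw [hSdef, Sylow.coe_mapSurjective]
    exact Subgroup.mem_map
  obtain ⟨hS8card, hSexp⟩ := hS8 S
  have hcomap : ∀ x : L, φ x ∈ (S : Subgroup G) → x ∈ (P : Subgroup L) := by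
    intro x hx
    obtain ⟨x', hx', hxx'⟩ := (hScoe _).mp hx
    have h1 : x'⁻¹ * x ∈ Z := by
      rw [← hφker, map_mul, map_inv, hxx', inv_mul_cancel]
    have h2 : x = x' * (x'⁻¹ * x) := by group
    rw [h2]
    exact mul_mem hx' (hZP h1)
  have hPZ : ∀ x ∈ (P : Subgroup L), ∀ y ∈ (P : Subgroup L), ⁅x, y⁆ ∈ Z := by
    intro x hx y hy
    rw [← hφker, map_commutatorElement]
    have hx2 := hSexp _ ((hScoe _).mpr ⟨x, hx, rfl⟩)
    have hy2 := hSexp _ ((hScoe _).mpr ⟨y, hy, rfl⟩)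
    have hxy2 := hSexp _ ((hScoe _).mpr ⟨x * y, mul_mem hx hy, rfl⟩)
    rw [map_mul] at hxy2
    generalize φ x = a at hx2 hxy2 ⊢
    generalize φ y = b at hy2 hxy2 ⊢
    have ha : a⁻¹ = a := by rw [inv_eq_iff_mul_eq_one, ← pow_two]; exact hx2
    have hb : b⁻¹ = b := by rw [inv_eq_iff_mul_eq_one, ← pow_two]; exact hy2
    rw [commutatorElement_def, ha, hb]
    rw [pow_two] at hxy2
    rw [← hxy2]; group
  -- the Sylow subgroup of `L` is abelian
  have hab : ∀ x ∈ (P : Subgroup L), ∀ y ∈ (P : Subgroup L), ⁅x, y⁆ = 1 := by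
    by_contra hcon
    simp only [not_forall] at hcon
    obtain ⟨x₀', hx₀, y₀', hy₀, hne⟩ := hcon
    letI : CommGroup ↥Z := { (inferInstance : Group ↥Z) with
      mul_comm := fun a b => Subtype.ext (Subgroup.mem_center_iff.mp (hZc b.2) a.1) }
    have hz₀ : (⟨⁅x₀', y₀'⁆, hPZ x₀' hx₀ y₀' hy₀⟩ : ↥Z) ≠ 1 := by
      intro h
      exact hne (congrArg Subtype.val h)
    obtain ⟨χ, hχ⟩ := CommGroup.exists_apply_ne_one_of_hasEnoughRootsOfUnity ↥Z ℂ hz₀
    set T := ↥(P : Subgroup L) with hT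
    let cH : T → (T →* ↥Z) := commHom Z (P : Subgroup L) hZc hPZ
    let F : T → (T →* ℂˣ) := fun x => χ.comp (cH x)
    let x₀ : T := ⟨x₀', hx₀⟩
    let y₀ : T := ⟨y₀', hy₀⟩
    have hFxy : F x₀ y₀ ≠ 1 := hχ
    have hFself : ∀ x : T, F x x = 1 := by
      intro x
      show χ (cH x x) = 1
      rw [show cH x x = 1 from commHom_self _ _ _ _ x, map_one]
    have hFsymm : ∀ x y : T, F y x = (F x y)⁻¹ := by
      intro x y
      show χ (cH y x) = (χ (cH x y))⁻¹
      rw [show cH y x = (cH x y)⁻¹ from commHom_symm _ _ _ _ x y, map_inv]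
    have hFcen : ∀ x z : T, (z : L) ∈ Z → F x z = 1 := by
      intro x z hz
      show χ (cH x z) = 1
      rw [show cH x z = 1 from commHom_central _ _ _ _ x z hz, map_one]
    have hsqZ : ∀ y : T, ((y ^ 2 : T) : L) ∈ Z := by
      intro y
      rw [← hφker, Subgroup.coe_pow, map_pow]
      exact hSexp _ ((hScoe _).mpr ⟨y, y.2, rfl⟩)
    have hFsq : ∀ x y : T, F x y ^ 2 = 1 := by
      intro x y
      rw [← map_pow]
      exact hFcen x _ (hsqZ y)
    -- the three kernels
    set K₁ : Subgroup T := (F x₀).ker with hK₁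
    set K₂ : Subgroup T := (F y₀).ker with hK₂
    set Zt : Subgroup T := Z.subgroupOf (P : Subgroup L) with hZt
    have hZtK : ∀ x : T, Zt ≤ (F x).ker := by
      intro x z hz
      rw [MonoidHom.mem_ker]
      exact hFcen x z (Subgroup.mem_subgroupOf.mp hz)
    -- the index of `Zt` is 8
    have hZtidx : Zt.index = 8 := by
      let ψ : T →* G := φ.comp (P : Subgroup L).subtype
      have h1 : ψ.ker = Zt := by
        ext x
        rw [MonoidHom.mem_ker, hZt, Subgroup.mem_subgroupOf]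
        exact hφker x
      have h2 : ψ.range = (S : Subgroup G) := by
        ext s
        rw [hScoe, MonoidHom.mem_range]
        constructor
        · rintro ⟨x, rfl⟩; exact ⟨x, x.2, rfl⟩
        · rintro ⟨x, hx, rfl⟩; exact ⟨⟨x, hx⟩, rfl⟩
      rw [← h1, Subgroup.index_ker, h2, hS8card]
    -- a non-central element of `K₁ ⊓ K₂`
    obtain ⟨r, hrD, hrZ⟩ : ∃ r : T, r ∈ K₁ ⊓ K₂ ∧ r ∉ Zt := by
      by_contra hcon
      simp only [not_exists, not_and, not_not] at hcon
      have hle : K₁ ⊓ K₂ ≤ Zt := hcon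
      have h1 : Zt.index ∣ (K₁ ⊓ K₂).index := Subgroup.index_dvd_of_le hle
      have h2 : (K₁ ⊓ K₂).index ≤ K₁.index * K₂.index := Subgroup.index_inf_le
      have h3 : K₁.index ≤ 2 := index_ker_le_two _ (hFsq x₀)
      have h4 : K₂.index ≤ 2 := index_ker_le_two _ (hFsq y₀)
      have h5 : (K₁ ⊓ K₂).index ≠ 0 := Subgroup.index_ne_zero_of_finite
      have h6 := Nat.le_of_dvd (Nat.pos_of_ne_zero h5) h1
      rw [hZtidx] at h6
      have h7 : K₁.index * K₂.index ≤ 4 := by nlinarith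
      omega
    have hr1 : F x₀ r = 1 := MonoidHom.mem_ker.mp hrD.1
    have hr2 : F y₀ r = 1 := MonoidHom.mem_ker.mp hrD.2
    have hrx : F r x₀ = 1 := by rw [hFsymm x₀ r, hr1, inv_one]
    have hry : F r y₀ = 1 := by rw [hFsymm y₀ r, hr2, inv_one]
    have hyx : F y₀ x₀ ≠ 1 := by
      rw [hFsymm x₀ y₀]
      intro h
      exact hFxy (inv_eq_one.mp h)
    -- `r` is in the radical
    have hrad : ∀ y : T, F r y = 1 := by
      set Kr : Subgroup T := (F r).ker with hKr
      set M₁ : Subgroup T := Zt ⊔ Subgroup.zpowers r with hM₁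
      set M₂ : Subgroup T := M₁ ⊔ Subgroup.zpowers x₀ with hM₂
      set M₃ : Subgroup T := M₂ ⊔ Subgroup.zpowers y₀ with hM₃
      have hM₁K₂ : M₁ ≤ K₂ :=
        sup_le (hZtK y₀) ((Subgroup.zpowers_le).mpr hrD.2)
      have hM₁K₁ : M₁ ≤ K₁ :=
        sup_le (hZtK x₀) ((Subgroup.zpowers_le).mpr hrD.1)
      have hM₂K₁ : M₂ ≤ K₁ :=
        sup_le hM₁K₁ ((Subgroup.zpowers_le).mpr (MonoidHom.mem_ker.mpr (hFself x₀)))
      have hM₃Kr : M₃ ≤ Kr := by
        refine sup_le (sup_le (sup_le (hZtK r) ?_) ?_) ?_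
        · exact (Subgroup.zpowers_le).mpr (MonoidHom.mem_ker.mpr (hFself r))
        · exact (Subgroup.zpowers_le).mpr (MonoidHom.mem_ker.mpr hrx)
        · exact (Subgroup.zpowers_le).mpr (MonoidHom.mem_ker.mpr hry)
      have i1 : 2 * M₁.index ≤ Zt.index :=
        two_mul_index_le Zt M₁ le_sup_left r
          (le_sup_right (a := Zt) (Subgroup.mem_zpowers r)) hrZ
      have i2 : 2 * M₂.index ≤ M₁.index :=
        two_mul_index_le M₁ M₂ le_sup_left x₀
          (le_sup_right (a := M₁) (Subgroup.mem_zpowers x₀))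
          (fun h => hyx (MonoidHom.mem_ker.mp (hM₁K₂ h)))
      have i3 : 2 * M₃.index ≤ M₂.index :=
        two_mul_index_le M₂ M₃ le_sup_left y₀
          (le_sup_right (a := M₂) (Subgroup.mem_zpowers y₀))
          (fun h => hFxy (MonoidHom.mem_ker.mp (hM₂K₁ h)))
      have i4 : M₃.index ≠ 0 := Subgroup.index_ne_zero_of_finite
      have i5 : M₃.index = 1 := by rw [hZtidx] at i1; omega
      have i6 : M₃ = ⊤ := Subgroup.index_eq_one.mp i5
      intro y
      have : y ∈ Kr := hM₃Kr (i6 ▸ Subgroup.mem_top y)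
      exact MonoidHom.mem_ker.mp this
    -- fusion
    have hφr : φ (r : L) ≠ 1 := by
      intro h
      exact hrZ (Subgroup.mem_subgroupOf.mpr ((hφker _).mp h))
    have hφx : φ x₀' ≠ 1 := by
      intro h
      have hxZ : x₀' ∈ Z := (hφker _).mp h
      apply hne
      exact comm_central_left _ _ (hZc hxZ)
    obtain ⟨n, hn, hnr⟩ := hFus S (φ (r : L)) ((hScoe _).mpr ⟨r, r.2, rfl⟩) hφr
      (φ x₀') ((hScoe _).mpr ⟨x₀', hx₀, rfl⟩) hφx
    obtain ⟨n', rfl⟩ := hφsurj n
    have hw : n' * (r : L) * n'⁻¹ ∈ (P : Subgroup L) := by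
      apply hcomap
      rw [map_mul, map_mul, map_inv, hnr]
      exact (hScoe _).mpr ⟨x₀', hx₀, rfl⟩
    have hy' : n'⁻¹ * y₀' * n' ∈ (P : Subgroup L) := by
      apply hcomap
      have hninv := Subgroup.inv_mem _ hn
      have := (Subgroup.mem_normalizer_iff.mp hninv (φ y₀')).mp ((hScoe _).mpr ⟨y₀', hy₀, rfl⟩)
      rw [inv_inv] at this
      rw [map_mul, map_mul, map_inv]
      exact this
    -- `x₀ = w * z` with `z` central
    have hz : (n' * (r : L) * n'⁻¹)⁻¹ * x₀' ∈ Z := by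
      rw [← hφker, map_mul, map_inv, map_mul, map_mul, map_inv, hnr, inv_mul_cancel]
    have hx₀eq : x₀' = (n' * (r : L) * n'⁻¹) * ((n' * (r : L) * n'⁻¹)⁻¹ * x₀') := by group
    have hc1 : ⁅x₀', y₀'⁆ = ⁅(r : L), n'⁻¹ * y₀' * n'⁆ := by
      rw [hx₀eq, comm_mul_central _ _ _ (hZc hz)]
      exact comm_conj _ _ _ (hZc (hPZ _ r.2 _ hy'))
    apply hχ
    have hc2 : (⟨⁅x₀', y₀'⁆, hPZ x₀' hx₀ y₀' hy₀⟩ : ↥Z) = cH r ⟨n'⁻¹ * y₀' * n', hy'⟩ := by
      apply Subtype.ext
      exact hc1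
    rw [hc2]
    exact hrad ⟨n'⁻¹ * y₀' * n', hy'⟩
  -- conclusion by transfer
  rw [eq_bot_iff]
  intro z hz
  rw [Subgroup.mem_bot]
  have hzc : z ∈ commutator L := by rw [hperf]; exact Subgroup.mem_top z
  obtain ⟨h1, h2⟩ := central_pow_index_mem_commutator (P : Subgroup L) (hZc hz) hzc
  have h3 : commutator ↥(P : Subgroup L) = ⊥ := by
    rw [commutator_def, Subgroup.commutator_eq_bot_iff_le_centralizer]
    intro x _ y _
    have := hab x x.2 y y.2
    apply Subtype.ext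
    rw [Subgroup.coe_mul, Subgroup.coe_mul]
    rw [commutatorElement_eq_one_iff_mul_comm] at this
    exact this.symm
  rw [h3, Subgroup.mem_bot] at h2
  have h4 : z ^ (P : Subgroup L).index = 1 := congrArg Subtype.val h2
  obtain ⟨k, hk⟩ := hZ2 ⟨z, hz⟩
  have hk' : z ^ 2 ^ k = 1 := by
    have := congrArg Subtype.val hk
    simpa using this
  have hodd : ¬ 2 ∣ (P : Subgroup L).index := P.not_dvd_index
  have hcop : Nat.Coprime (2 ^ k) (P : Subgroup L).index :=
    Nat.Coprime.pow_left k ((Nat.Prime.coprime_iff_not_dvd Nat.prime_two).mpr hodd)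
  have h5 := Nat.dvd_gcd (orderOf_dvd_of_pow_eq_one hk') (orderOf_dvd_of_pow_eq_one h4)
  rw [hcop.gcd_eq_one] at h5
  exact orderOf_eq_one_iff.mp (Nat.dvd_one.mp h5)

end Cfsg.Agent.Lib.Helper86.JR
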